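import Cfsg.Agent.H162.CC.Tools3
import Cfsg.Agent.H839.Rad.Base

/-!
# S3828, rows: small tools
-/

set_option autoImplicit false

namespace Cfsg.Agent.H865.CC

open Subgroup Cfsg Cfsg.Agent.H162.CCR Cfsg.Agent.Lib.Cores Cfsg.Agent.H459.Rad
open Cfsg.Agent.H839.Rad (RadFree)

variable {G : Type*} [Group G]

/-- a prime not dividing the order -/
theorem crow_of_not_dvd [Finite G] {p : ℕ} (h : ¬ p ∣ Nat.card G) : CRow p G := by
  intro C hC c hc
  obtain ⟨k, hk⟩ := hC.pel c hc
  rcases Nat.eq_zero_or_pos k with rfl | hk0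
  · rwa [pow_zero, orderOf_eq_one_iff] at hk
  · exfalso
    apply h
    exact (dvd_pow_self p hk0.ne').trans (hk ▸ orderOf_dvd_natCard c)

/-- an element of order `p` in a non-trivial subgroup of `p`-elements -/
theorem exists_order [Finite G] {p : ℕ} [hp : Fact p.Prime] {N : Subgroup G} (hN : IsPGroup p N) (h : N ≠ ⊥) :
    ∃ x ∈ N, orderOf x = p := by
  have h1 : p ∣ Nat.card N := by
    obtain ⟨n, hn⟩ := hN.exists_card_eq
    rw [hn]
    rcases Nat.eq_zero_or_pos n with rfl | h0
    · exact absurd (card_eq_one.1 (by rw [hn, pow_zero])) h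
    · exact dvd_pow_self p h0.ne'
  obtain ⟨x, hx⟩ := exists_prime_orderOf_dvd_card' p h1
  exact ⟨x, x.2, by rw [Subgroup.orderOf_coe, hx]⟩

theorem pCore_eq_bot_of_radFree [Finite G] {p : ℕ} [hp : Fact p.Prime] (h : RadFree p G) : pCore p G = ⊥ := by
  by_contra hne
  have h1 : IsPGroup p (pCore p G) := pCore_isPGroup p
  obtain ⟨x, hx, hxp⟩ := exists_order h1 hne
  have h2 : Group.IsNilpotent (pCore p G) := h1.isNilpotent
  have h3 : Group.IsSolvable (pCore p G) := inferInstance
  exact h x hxp (le_rad (inferInstance : (pCore p G).Normal) h3 hx)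

/-- the image of the core -/
theorem map_pCore_le {H : Type*} [Group H] {f : G →* H} (hf : Function.Surjective f) (p : ℕ) :
    (pCore p G).map f ≤ pCore p H :=
  le_pCore ((inferInstance : (pCore p G).Normal).map f hf) ((pCore_isPGroup p).map f)

/-- the core lies in the kernel if the image has trivial core -/
theorem pCore_le_ker {H : Type*} [Group H] {f : G →* H} (hf : Function.Surjective f) {p : ℕ} (h : pCore p H = ⊥) :
    pCore p G ≤ f.ker := by
  intro x hx
  have h1 := map_pCore_le hf p (mem_map_of_mem f hx)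
  rwa [h, mem_bot] at h1

/-- **Tool for `p` odd**: `c` of order `p` commutes with an involution, all involution centralizers have trivial core -/
theorem eq_one_of_comm [Finite G] {p : ℕ} {C : Set G} (h : Min p C)
    (ht : ∀ t : G, t ≠ 1 → t * t = 1 → ∃ H : Subgroup G, H ≠ ⊤ ∧ centralizer {t} ≤ H ∧ pCore p H = ⊥)
    {c t : G} (hc : c ∈ C) (ht1 : t ≠ 1) (ht2 : t * t = 1) (hct : c * t = t * c) : c = 1 := by
  obtain ⟨H, h1, h2, h3⟩ := ht t ht1 ht2
  exact h.eq_one_of_mem h1 h3 hc (h2 (mem_centralizer_singleton_iff.2 hct))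

end Cfsg.Agent.H865.CC
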