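import Cfsg.Agent.H865.CC.Base
import Cfsg.Agent.H235.AA.Ly

/-!
# S3828, the row `Ly` (except `p = 37, 67`)
-/

set_option autoImplicit false

namespace Cfsg.Agent.H865.CC.Ly

open Subgroup Cfsg Cfsg.Agent.H162.CCR Cfsg.Agent.Lib.Cores Cfsg.Agent.H459.Rad
open Cfsg.Agent.H235.AA.Tools Cfsg.Agent.H235.AA.Ly Cfsg.Agent.SporRec.LyG2
open Cfsg.Agent.H839.Rad (RadFree)

open Cfsg.Agent.R10.Close in
/-- the centralizer of an involution -/
theorem cent_ne_top {t : Spor.Ly} (ht1 : t ≠ 1) : centralizer ({t} : Set Spor.Ly) ≠ ⊤ := by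
  have := simple
  intro h
  apply ht1
  have h1 : t ∈ center Spor.Ly := by
    rw [mem_center_iff]
    intro g
    have h2 : g ∈ centralizer ({t} : Set Spor.Ly) := by rw [h]; exact mem_top g
    exact mem_centralizer_singleton_iff.1 h2
  rw [center_eq_bot not_comm] at h1
  exact h1

open Cfsg.Agent.R10.Close in
theorem index_cent : (centralizer ({τ} : Set Spor.Ly)).index = 1296826875 := by
  have h := (centralizer ({τ} : Set Spor.Ly)).card_mul_index
  rw [cover_τ.1, card_Ly] at h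
  omega

open Cfsg.Agent.R10.Close in
theorem core_cent {p : ℕ} [hp : Fact p.Prime] (hp2 : p ≠ 2) {t : Spor.Ly} (ht1 : t ≠ 1) (ht : t * t = 1) :
    ∃ H : Subgroup Spor.Ly, H ≠ ⊤ ∧ centralizer {t} ≤ H ∧ pCore p H = ⊥ :=
  ⟨_, cent_ne_top ht1, le_rfl, pCore_eq_bot_of_radFree (radFree_invol hp.out hp2
    (have : Fact (Nat.Prime 2) := ⟨Nat.prime_two⟩; orderOf_eq_prime (by rw [pow_two, ht]) ht1))⟩

open Cfsg.Agent.R10.Close in
theorem crow_cent {p : ℕ} [hp : Fact p.Prime] (hp2 : p ≠ 2) (hi : ¬ p ∣ 1296826875) : CRow p Spor.Ly := by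
  intro C hC
  have hτ : orderOf τ = 2 := order_τ
  refine hC.eq_one_of_index (H := centralizer ({τ} : Set Spor.Ly)) (cent_ne_top ?_) (by rw [index_cent]; exact hi)
    (pCore_eq_bot_of_radFree (radFree_invol hp.out hp2 hτ))
  intro h
  rw [h, orderOf_one] at hτ
  omega

open Cfsg.Agent.R10.Close in
theorem crow_two : CRow 2 Spor.Ly := by
  have h2 : Fact (Nat.Prime 2) := ⟨Nat.prime_two⟩
  have := simple
  intro C hC
  have hτ : orderOf τ = 2 := order_τ
  refine hC.eq_one_of_two_exp (pCore_eq_bot_of_simple not_comm 2) (H := centralizer ({τ} : Set Spor.Ly))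
    (cent_ne_top ?_) (by rw [index_cent]; norm_num) ?_
  · intro h
    rw [h, orderOf_one] at hτ
    omega
  · intro x hx
    obtain ⟨-, hc, ⟨e⟩, -⟩ := cover_τ
    -- `O_2(A₁₁) = 1`
    have hs : IsSimpleGroup (alternatingGroup (Fin 11)) :=
      alternatingGroup.isSimpleGroup (by simp)
    have hab : ¬ IsMulCommutative (alternatingGroup (Fin 11)) :=
      not_comm_of_card (by rw [nat_card_alternatingGroup, Nat.card_fin]; norm_num [Nat.factorial])
    have h3 : pCore 2 (alternatingGroup (Fin 11)) = ⊥ := pCore_eq_bot_of_simple hab 2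
    set f := e.toMonoidHom.comp (QuotientGroup.mk' (center (centralizer ({τ} : Set Spor.Ly)))) with hf
    have h4 : Function.Surjective f := e.surjective.comp (QuotientGroup.mk'_surjective _)
    have h5 := pCore_le_ker h4 h3 hx
    have h6 : x ∈ center (centralizer ({τ} : Set Spor.Ly)) := by
      have h7 : e (QuotientGroup.mk' (center (centralizer ({τ} : Set Spor.Ly))) x) = 1 := h5
      rw [map_eq_one_iff e e.injective] at h7
      exact (QuotientGroup.eq_one_iff x).1 h7
    have h7 := pow_card_eq_one' (x := (⟨x, h6⟩ : center (centralizer ({τ} : Set Spor.Ly))))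
    rw [hc, pow_two] at h7
    exact congrArg Subtype.val h7

theorem crow_G2 {p : ℕ} [hp : Fact p.Prime] (hi : ¬ p ∣ 8835156) : CRow p Spor.Ly := by
  intro C hC
  have hidx : LyEmb.H.index = 8835156 := by
    have h := LyEmb.H.card_mul_index
    rw [LyEmb.card_H, card_Ly] at h
    omega
  have hs : IsSimpleGroup LyEmb.H := LyEmb.isSimpleGroup_H
  refine hC.eq_one_of_index (H := LyEmb.H) ?_ (by rw [hidx]; exact hi) (pCore_eq_bot_of_simple ?_ p)
  · intro h
    rw [h, index_top] at hidx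
    omega
  · exact not_comm_of_card (by rw [LyEmb.card_H]; norm_num)

open Cfsg.Agent.CpAutLy.Base in
theorem crow_three : CRow 3 Spor.Ly := by
  have h3 : Fact (Nat.Prime 3) := ⟨Nat.prime_three⟩
  have hsim := simple
  intro C hC c hc
  obtain ⟨x₀, T⟩ := exists_three
  obtain ⟨hMf, hMs, hMc, -⟩ := TypeM.FactsMcL.facts T.quot
  obtain ⟨s, hs, hsx, -⟩ := Cfsg.Agent.CpAutLy.Row.exists_base_nn T
  set H := centralizer ({x₀} : Set Spor.Ly) with hH
  have hcH : Nat.card H = 3 * 898128000 := by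
    rw [Subgroup.card_eq_card_quotient_mul_card_subgroup (center H), T.zcard, hMc]
  have hidx : H.index = 19212250 := by
    have h := H.card_mul_index
    rw [hcH, card_Ly] at h
    omega
  have hM : ¬ IsMulCommutative (↥H ⧸ center ↥H) := not_comm_of_card (by rw [hMc]; norm_num)
  obtain ⟨g, hg⟩ := hC.exists_conj_mem (H := H) (by rw [hidx]; norm_num) hc
  have hHt : H ≠ ⊤ := by
    intro h
    rw [h, index_top] at hidx
    omega
  have h1 := hC.loc H hHt _ (hC.conj g c hc) hg
  have h2 : pCore 3 (↥H ⧸ center ↥H) = ⊥ := pCore_eq_bot_of_simple hM 3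
  have h4 : (⟨g * c * g⁻¹, hg⟩ : H) ∈ center H := by
    have h5 := pCore_le_ker (QuotientGroup.mk'_surjective (center H)) h2 h1
    exact (QuotientGroup.eq_one_iff _).1 h5
  have h5 : g * c * g⁻¹ * s = s * (g * c * g⁻¹) := by
    have h6 := mem_center_iff.1 h4 ⟨s, mem_centralizer_singleton_iff.2 hsx⟩
    exact (congrArg Subtype.val h6).symm
  have hs1 : s ≠ 1 := by
    intro h
    rw [h, orderOf_one] at hs
    omega
  have h6 := eq_one_of_comm hC (fun t ht1 ht2 => core_cent (p := 3) (by norm_num) ht1 ht2) (hC.conj g c hc) hs1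
    (by rw [← pow_two, ← hs, pow_orderOf_eq_one]) h5
  have h7 : c = g⁻¹ * (g * c * g⁻¹) * g := by group
  rw [h7, h6]
  group

theorem crow (p : ℕ) [hp : Fact p.Prime] (h37 : p ≠ 37) (h67 : p ≠ 67) : CRow p Spor.Ly := by
  by_cases hd : p ∣ Nat.card Spor.Ly
  swap
  · exact crow_of_not_dvd hd
  rw [card_Ly] at hd
  by_cases h2 : p = 2
  · subst h2; exact crow_two
  by_cases h3 : p = 3
  · subst h3; exact crow_three
  by_cases h4 : p ∣ 8835156
  swap
  · exact crow_G2 h4
  by_cases h5 : p ∣ 1296826875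
  swap
  · exact crow_cent h2 h5
  exfalso
  have h6 : p ∣ Nat.gcd 8835156 1296826875 := Nat.dvd_gcd h4 h5
  have h7 : Nat.gcd 8835156 1296826875 = 3 ^ 3 * (37 * 67) := by norm_num
  rw [h7] at h6
  rcases hp.out.dvd_mul.1 h6 with h | h
  · exact h3 ((Nat.prime_dvd_prime_iff_eq hp.out Nat.prime_three).1 (hp.out.dvd_of_dvd_pow h))
  · rcases hp.out.dvd_mul.1 h with h | h
    · exact h37 ((Nat.prime_dvd_prime_iff_eq hp.out (by norm_num)).1 h)
    · exact h67 ((Nat.prime_dvd_prime_iff_eq hp.out (by norm_num)).1 h)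

/-- **The row `Ly`.** -/
theorem crow_ly {G : Type*} [Group G] [Finite G] [IsSimpleGroup G] (h : Spor.IsoLy G) (p : ℕ) [hp : Fact p.Prime]
    (h37 : p ≠ 37) (h67 : p ≠ 67) : CRow p G := by
  obtain ⟨e⟩ := h
  exact CRow.of_equiv e (crow p h37 h67)

end Cfsg.Agent.H865.CC.Ly
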